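import Mathlib
import Cfsg.Agent.H297.CfgA

/-!
# The configuration: `z ∈ A`, elements of `A` centralizing conjugates of `z`
-/

set_option autoImplicit false

namespace Cfsg.Agent.H297

open Subgroup Cfsg

/-- `a` lies in the conjugate of `A` attached to the conjugate `y` of `z`. -/
def InA {G : Type*} [Group G] (A : Subgroup G) (z y a : G) : Prop := ∀ g : G, g * z * g⁻¹ = y → g⁻¹ * a * g ∈ A

/-- The conjugates of `z` in `T` other than `z`. -/
def DD {G : Type*} [Group G] (T : Sylow 2 G) (z y : G) : Prop := y ∈ T ∧ IsConj z y ∧ y ≠ z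

namespace Cfg

variable {G : Type*} [Group G] {A : Subgroup G} {T : Sylow 2 G} {z r : G}

theorem inA_mk (C : Cfg A T z r) {y a g : G} (hg : g * z * g⁻¹ = y) (ha : g⁻¹ * a * g ∈ A) : InA A z y a := by
  intro k hk
  have h1 : (k⁻¹ * g) * z = z * (k⁻¹ * g) := by
    have h2 : g * z * g⁻¹ = k * z * k⁻¹ := by rw [hg, hk]
    calc (k⁻¹ * g) * z = k⁻¹ * (g * z * g⁻¹) * g := by group
      _ = k⁻¹ * (k * z * k⁻¹) * g := by rw [h2]
      _ = _ := by group
  have h2 := nA (C.CN _ h1) ha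
  have e : k⁻¹ * g * (g⁻¹ * a * g) * (k⁻¹ * g)⁻¹ = k⁻¹ * a * k := by group
  rwa [e] at h2

theorem inA_z (C : Cfg A T z r) {a : G} : InA A z z a ↔ a ∈ A := by
  constructor
  · intro h
    have := h 1 (by group)
    simpa using this
  · intro h
    exact C.inA_mk (g := 1) (by group) (by simpa using h)

theorem inA_mul {y a b : G} (ha : InA A z y a) (hb : InA A z y b) : InA A z y (a * b) := by
  intro g hg
  have := A.mul_mem (ha g hg) (hb g hg)
  have e : g⁻¹ * a * g * (g⁻¹ * b * g) = g⁻¹ * (a * b) * g := by group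
  rwa [e] at this

theorem inA_inv {y a : G} (ha : InA A z y a) : InA A z y a⁻¹ := by
  intro g hg
  have := A.inv_mem (ha g hg)
  have e : (g⁻¹ * a * g)⁻¹ = g⁻¹ * a⁻¹ * g := by group
  rwa [e] at this

theorem inA_one {y : G} : InA A z y 1 := by
  intro g hg
  rw [mul_one, inv_mul_cancel]
  exact A.one_mem

theorem inA_conj {y a : G} (k : G) (ha : InA A z y a) : InA A z (k * y * k⁻¹) (k * a * k⁻¹) := by
  intro g hg
  have := ha (k⁻¹ * g) (by
    calc k⁻¹ * g * z * (k⁻¹ * g)⁻¹ = k⁻¹ * (g * z * g⁻¹) * k := by group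
      _ = y := by rw [hg]; group)
  have e : (k⁻¹ * g)⁻¹ * a * (k⁻¹ * g) = g⁻¹ * (k * a * k⁻¹) * g := by group
  rwa [e] at this

theorem inA_conj_iff {y a : G} (k : G) : InA A z (k * y * k⁻¹) (k * a * k⁻¹) ↔ InA A z y a := by
  constructor
  · intro h
    have := inA_conj k⁻¹ h
    have e1 : k⁻¹ * (k * y * k⁻¹) * k⁻¹⁻¹ = y := by group
    have e2 : k⁻¹ * (k * a * k⁻¹) * k⁻¹⁻¹ = a := by group
    rwa [e1, e2] at this
  · exact inA_conj k

/-- Elements of `A_y` commute with elements of `K_y`. -/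
theorem inA_commK {y a σ : G} (ha : InA A z y a)
    (hσ : ∃ g : G, g * z * g⁻¹ = y ∧ ∀ a ∈ A, (g⁻¹ * σ * g) * a = a * (g⁻¹ * σ * g)) : a * σ = σ * a := by
  obtain ⟨g, hg, h⟩ := hσ
  have h1 := h _ (ha g hg)
  have e1 : a * σ = g * ((g⁻¹ * a * g) * (g⁻¹ * σ * g)) * g⁻¹ := by group
  rw [e1, ← h1]
  group

theorem inA_comm (C : Cfg A T z r) {y a : G} (hy : IsConj z y) (ha : InA A z y a) : a * y = y * a := by
  obtain ⟨g, hg⟩ := isConj_iff.1 hy
  exact inA_commK ha ⟨g, hg, by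
    have e : g⁻¹ * y * g = z := by rw [← hg]; group
    rw [e]
    exact C.zK⟩

/-- **(F10a)** -/
theorem eq_of_mem_A [Finite G] (C : Cfg A T z r) {y : G} (hy : IsConj z y) (hyA : y ∈ A) : y = z :=
  C.sing C.rK C.rr hy (C.rK y hyA).symm

/-- **(F12)** -/
theorem eq_of_inA [Finite G] (C : Cfg A T z r) {y : G} (hy : IsConj z y) (h : InA A z y z) : y = z := by
  obtain ⟨g, hg⟩ := isConj_iff.1 hy
  have h1 := h g hg
  have h2 : g⁻¹ * z * g = z := by
    apply C.eq_of_mem_A _ h1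
    exact isConj_iff.2 ⟨g⁻¹, by group⟩
  rw [← hg]
  nth_rewrite 1 [← h2]
  group

/-- **(F10b)** -/
theorem conj_comm [Finite G] (C : Cfg A T z r) {x a : G} (hx : IsConj z x) (hxz : x ≠ z) (hxc : x * z = z * x)
    (ha : a ∈ A) (h : (a * x * a⁻¹) * x = x * (a * x * a⁻¹)) : a * x * a⁻¹ = x ∨ a * x * a⁻¹ = x * z := by
  by_cases hne : a * x * a⁻¹ = x
  · exact Or.inl hne
  right
  obtain ⟨ρ, hρ, hρρ, h1⟩ := C.flip hx hxz hxc
  have h2 : ρ * (a * x * a⁻¹) * ρ⁻¹ = (a * x * a⁻¹) * z := by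
    have h3 := hρ a ha
    have h4 := C.zK a ha
    have h5 : a⁻¹ * ρ⁻¹ = (ρ * a)⁻¹ := by group
    calc ρ * (a * x * a⁻¹) * ρ⁻¹ = (ρ * a) * x * (ρ * a)⁻¹ := by group
      _ = a * (ρ * x * ρ⁻¹) * a⁻¹ := by rw [h3]; group
      _ = a * x * (z * a⁻¹) := by rw [h1]; group
      _ = a * x * (a⁻¹ * z) := by rw [C.zK _ (A.inv_mem ha)]
      _ = _ := by group
  have hx' := conj_mk a hx
  have h3 := C.prod_conj hx' hx h hne
  have h4 : (a * x * a⁻¹) * x = z := by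
    apply C.sing hρ hρρ h3
    have h5 : ρ * ((a * x * a⁻¹) * x) * ρ⁻¹ = (a * x * a⁻¹) * x := by
      calc ρ * ((a * x * a⁻¹) * x) * ρ⁻¹ = (ρ * (a * x * a⁻¹) * ρ⁻¹) * (ρ * x * ρ⁻¹) := by group
        _ = (a * x * a⁻¹) * (z * x) * z := by rw [h2, h1]; group
        _ = (a * x * a⁻¹) * (x * z) * z := by rw [hxc]
        _ = (a * x * a⁻¹) * x * (z * z) := by group
        _ = _ := by rw [C.zz, mul_one]
    rw [mul_inv_eq_iff_eq_mul] at h5
    exact h5.symm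
  have h5 : a * x * a⁻¹ = z * x⁻¹ := by rw [← h4]; group
  rw [h5, C.inve hx, hxc]

theorem not_K [Finite G] (C : Cfg A T z r) {x : G} (hx : DD T z x) : ∃ a ∈ A, x * a ≠ a * x := by
  by_contra hcon
  push Not at hcon
  rcases C.R2 x hx.1 hcon (C.sq hx.2.1) with h | h
  · exact C.ne1 hx.2.1 h
  · exact hx.2.2 h

theorem exists_e₀ [Finite G] (C : Cfg A T z r) {x : G} (hx : DD T z x) :
    ∃ a ∈ A, (a * x * a⁻¹) * x ∈ A ∧ ((a * x * a⁻¹) * x) * ((a * x * a⁻¹) * x) = z := by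
  have hxN : x ∈ normalizer (A : Set G) := C.TN hx.1
  have hzz' : ∀ n ∈ zpowers z, n = 1 ∨ n = z := by
    rintro _ ⟨k, rfl⟩
    rcases Int.even_or_odd' k with ⟨m, rfl | rfl⟩
    · left
      show z ^ (2 * m) = 1
      rw [zpow_mul, zpow_two, C.zz, one_zpow]
    · right
      show z ^ (2 * m + 1) = z
      rw [zpow_add, zpow_mul, zpow_two, C.zz, one_zpow, one_mul, zpow_one]
  obtain ⟨a, ha, h1, h2⟩ := ZG.zg (A := A) (N := zpowers z) C.qs
    (by
      intro n hn a ha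
      rcases hzz' n hn with rfl | rfl
      · rw [one_mul, mul_one]
      · exact C.zK a ha) (w := x) hxN
    (mem_nor_comm (comm_zpowers (C.Tz x hx.1))) (by rw [C.sq hx.2.1]; exact one_mem _) (C.not_K hx)
  have hxi := C.inve hx.2.1
  have hxx := C.sq hx.2.1
  have hx'x' := C.sq (conj_mk a hx.2.1)
  have hx'i := C.inve (conj_mk a hx.2.1)
  refine ⟨a, ha, ?_, ?_⟩
  · have e : a * x * a⁻¹ * x = a * (x * a⁻¹ * x⁻¹) := by
      rw [hxi]
      group
    rw [e]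
    exact A.mul_mem ha (nA hxN (A.inv_mem ha))
  · rw [hx'i, hxi] at h2
    rcases hzz' _ h2 with h3 | h3
    · exfalso
      have h4 : (a * x * a⁻¹) * x = x * (a * x * a⁻¹) := by
        have h5 : (a * x * a⁻¹ * x) * (a * x * a⁻¹ * x) = 1 := by rw [← h3]; group
        rw [mul_eq_one_iff_eq_inv, mul_inv_rev, hx'i, hxi] at h5
        exact h5
      rcases C.conj_comm hx.2.1 hx.2.2 (C.Tz x hx.1) ha h4 with h5 | h5
      · exact h1 (by rw [h5, mul_inv_cancel]; exact one_mem _)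
      · apply h1
        rw [h5, C.Tz x hx.1, mul_inv_cancel_right]
        exact mem_zpowers z
    · rw [← h3]
      group

/-- **(F11)** -/
theorem zA [Finite G] (C : Cfg A T z r) : z ∈ A := by
  obtain ⟨x, hx⟩ := C.ne
  obtain ⟨a, ha, h1, h2⟩ := C.exists_e₀ hx
  rw [← h2]
  exact A.mul_mem h1 h1

/-- Moving elements into `T`. -/
theorem into_T [Finite G] (C : Cfg A T z r) {U : Subgroup G} (hU : IsPGroup 2 U) (hUz : ∀ u ∈ U, u * z = z * u) :
    ∃ h : G, h * z = z * h ∧ ∀ u ∈ U, h * u * h⁻¹ ∈ T := by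
  obtain ⟨h, h1, h2⟩ := C.transport (IsConj.refl z) hU hUz
  rw [mul_inv_eq_iff_eq_mul] at h1
  exact ⟨h, h1, h2⟩

theorem dih {x c : G} (hxx : x * x = 1) (hc : x * c * x⁻¹ = c⁻¹) : ∀ n ∈ zpowers c, x * n * x⁻¹ = n⁻¹ := by
  rintro _ ⟨k, rfl⟩
  show x * c ^ k * x⁻¹ = (c ^ k)⁻¹
  rw [← conj_zpow, hc, inv_zpow]

/-- A pair of elements of `𝒟` with product in `A`, of given type. -/
theorem pair_into_T [Finite G] (C : Cfg A T z r) {x c : G} (hx : IsConj z x) (hxz : x ≠ z) (hxc : x * z = z * x)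
    (hcA : c ∈ A) (hc2 : IsPGroup 2 (zpowers c)) (hcx : IsConj z (c * x)) :
    ∃ h : G, h * z = z * h ∧ DD T z (h * x * h⁻¹) ∧ DD T z ((h * c * h⁻¹) * (h * x * h⁻¹)) ∧ h * c * h⁻¹ ∈ T ∧
      h * c * h⁻¹ ∈ A := by
  have hxx := C.sq hx
  have hxi := C.inve hx
  have hinv : x * c * x⁻¹ = c⁻¹ := by
    have h1 := C.sq hcx
    rw [mul_assoc, mul_eq_one_iff_inv_eq] at h1
    rw [h1, hxi, mul_assoc]
  have hU := join_two hc2 (zpow_two_of_sq hxx) (fun n hn => by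
    rw [dih hxx hinv n hn]; exact inv_mem hn)
  have hUz : zpowers x ⊔ zpowers c ≤ centralizer {z} := by
    rw [sup_le_iff, zpowers_le, zpowers_le, mem_centralizer_singleton_iff, mem_centralizer_singleton_iff]
    exact ⟨hxc, (C.zK c hcA).symm⟩
  obtain ⟨h, hh, hhU⟩ := C.into_T hU (fun u hu => mem_centralizer_singleton_iff.1 (hUz hu))
  have h1 := hhU _ (mem_sup_left (mem_zpowers x))
  have h2 := hhU _ (mem_sup_right (mem_zpowers c))
  have h3 : h * c * h⁻¹ ∈ A := nA (C.CN h hh) hcA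
  have key : ∀ w, h * w * h⁻¹ = z → w = z := by
    intro w hw
    rw [mul_inv_eq_iff_eq_mul, ← hh] at hw
    exact mul_left_cancel hw
  refine ⟨h, hh, ⟨h1, conj_mk h hx, fun h4 => hxz (key x h4)⟩, ?_, h2, h3⟩
  have e : (h * c * h⁻¹) * (h * x * h⁻¹) = h * (c * x) * h⁻¹ := by group
  rw [e]
  refine ⟨?_, conj_mk h hcx, fun h4 => ?_⟩
  · rw [← e]
    exact (T : Subgroup G).mul_mem h2 h1
  · have h5 := key _ h4
    have h6 : x ∈ A := by
      have : x = c⁻¹ * z := by rw [← h5]; group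
      rw [this]
      exact A.mul_mem (A.inv_mem hcA) C.zA
    exact hxz (C.eq_of_mem_A hx h6)

/-- **(F19a)** -/
theorem exists_e [Finite G] (C : Cfg A T z r) :
    ∃ x e : G, DD T z x ∧ DD T z (e * x) ∧ e ∈ T ∧ e ∈ A ∧ e * e = z := by
  obtain ⟨x, hx⟩ := C.ne
  obtain ⟨a, ha, h1, h2⟩ := C.exists_e₀ hx
  obtain ⟨h, hh, h3, h4, h5, h6⟩ := C.pair_into_T hx.2.1 hx.2.2 (C.Tz x hx.1) h1
    (Tools.zpowers_two (N := zpowers z) (zpow_two_of_sq C.zz) (by rw [h2]; exact mem_zpowers z)) (by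
      have e : a * x * a⁻¹ * x * x = a * x * a⁻¹ * (x * x) := by group
      rw [e, C.sq hx.2.1, mul_one]
      exact conj_mk a hx.2.1)
  refine ⟨_, _, h3, h4, h5, h6, ?_⟩
  calc h * (a * x * a⁻¹ * x) * h⁻¹ * (h * (a * x * a⁻¹ * x) * h⁻¹)
      = h * ((a * x * a⁻¹ * x) * (a * x * a⁻¹ * x)) * h⁻¹ := by group
    _ = h * z * h⁻¹ := by rw [h2]
    _ = z := by rw [hh]; group

theorem odd_pow {x' x : G} (hx' : x' * x' = 1) (hx : x * x = 1) (l : ℕ) :
    (x' * x) ^ (2 * l + 1) * x = (x' * x) ^ l * x' * ((x' * x) ^ l)⁻¹ := by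
  have hxi : x⁻¹ = x := inv_eq_of_mul_eq_one_left hx
  have hxi' : x'⁻¹ = x' := inv_eq_of_mul_eq_one_left hx'
  have h1 : x * (x' * x) ^ l * x = ((x' * x) ^ l)⁻¹ := by
    have h2 : x * (x' * x) * x⁻¹ = (x' * x)⁻¹ := by
      rw [mul_inv_rev, hxi, hxi', mul_assoc, mul_assoc, hx, mul_one]
    nth_rewrite 3 [← hxi]
    rw [← conj_pow, h2, inv_pow]
  calc (x' * x) ^ (2 * l + 1) * x = (x' * x) ^ l * x' * (x * (x' * x) ^ l * x) := by
        rw [show 2 * l + 1 = l + 1 + l by ring, pow_add, pow_succ]; group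
    _ = _ := by rw [h1]

/-- **(F19b)** -/
theorem exists_c [Finite G] (C : Cfg A T z r) :
    ∃ x c : G, DD T z x ∧ DD T z (c * x) ∧ c ∈ T ∧ c ∈ A ∧ (∃ a ∈ A, c * a ≠ a * c) ∧
      ∀ a ∈ A, (c * c) * a = a * (c * c) := by
  obtain ⟨x, hx⟩ := C.ne
  have hxN : x ∈ normalizer (A : Set G) := C.TN hx.1
  have hxi := C.inve hx.2.1
  have hxx := C.sq hx.2.1
  obtain ⟨a, ha, h1, h2⟩ := ZG.zg (A := A) (N := A ⊓ centralizer (A : Set G)) C.qs
    (by
      rintro n ⟨-, hn⟩ a ha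
      exact (mem_centralizer_iff.1 hn a ha).symm) (w := x) hxN
    (mem_nor (by
      rintro n ⟨hn1, hn2⟩
      refine ⟨nA hxN hn1, mem_centralizer_iff.2 fun a ha => ?_⟩
      exact (nK hxN (fun a ha => (mem_centralizer_iff.1 hn2 a ha).symm) a ha).symm))
    (by rw [hxx]; exact one_mem _) (C.not_K hx)
  have hx' := conj_mk a hx.2.1
  have hx'x' := C.sq hx'
  have hx'i := C.inve hx'
  set x' := a * x * a⁻¹ with hx'def
  have hcA : x' * x ∈ A := by
    have e : x' * x = a * (x * a⁻¹ * x⁻¹) := by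
      rw [hx'def, hxi]
      group
    rw [e]
    exact A.mul_mem ha (nA hxN (A.inv_mem ha))
  rw [hxi] at h1
  rw [hx'i, hxi] at h2
  have hcc : (x' * x) * (x' * x) ∈ A ⊓ centralizer (A : Set G) := by
    have e : (x' * x) * (x' * x) = x' * x * x' * x := by group
    rw [e]
    exact h2
  -- the 2-part
  obtain ⟨k, m, hm, hkm⟩ := Nat.exists_eq_two_pow_mul_odd (orderOf_pos (x' * x)).ne'
  obtain ⟨l, rfl⟩ := hm
  have hc2 : IsPGroup 2 (zpowers ((x' * x) ^ (2 * l + 1))) := by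
    have hp : Fact (Nat.Prime 2) := ⟨Nat.prime_two⟩
    refine IsPGroup.of_card (n := k) ?_
    rw [Nat.card_zpowers, orderOf_pow, hkm]
    have : Nat.gcd (2 ^ k * (2 * l + 1)) (2 * l + 1) = 2 * l + 1 :=
      Nat.gcd_eq_right (Dvd.intro_left _ rfl)
    rw [this, Nat.mul_div_cancel _ (by omega)]
  obtain ⟨h, hh, h3, h4, h5, h6⟩ := C.pair_into_T hx.2.1 hx.2.2 (C.Tz x hx.1) (A.pow_mem hcA (2 * l + 1)) hc2 (by
    rw [odd_pow hx'x' hxx]
    exact conj_mk _ hx')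
  refine ⟨_, _, h3, h4, h5, h6, ?_, ?_⟩
  · by_contra hcon
    push Not at hcon
    apply h1
    have h7 : (x' * x) ^ (2 * l + 1) ∈ A ⊓ centralizer (A : Set G) := by
      refine ⟨A.pow_mem hcA _, mem_centralizer_iff.2 fun b hb => ?_⟩
      have h8 := nK (inv_mem (C.CN h hh)) hcon b hb
      have e : h⁻¹ * (h * (x' * x) ^ (2 * l + 1) * h⁻¹) * h⁻¹⁻¹ = (x' * x) ^ (2 * l + 1) := by group
      rw [e] at h8
      exact h8.symm
    have h8 : x' * x = (x' * x) ^ (2 * l + 1) * (((x' * x) * (x' * x)) ^ l)⁻¹ := by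
      rw [← pow_two, ← pow_mul, pow_succ', mul_inv_cancel_right]
    rw [h8]
    exact mul_mem h7 (inv_mem (pow_mem hcc l))
  · have e : h * (x' * x) ^ (2 * l + 1) * h⁻¹ * (h * (x' * x) ^ (2 * l + 1) * h⁻¹) =
        h * ((x' * x) * (x' * x)) ^ (2 * l + 1) * h⁻¹ := by
      rw [(Commute.refl (x' * x)).mul_pow]
      group
    rw [e]
    apply nK (C.CN h hh)
    intro b hb
    exact (mem_centralizer_iff.1 (pow_mem hcc (2 * l + 1)).2 b hb).symm

/-- **(P)** -/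
theorem inA_of_comm [Finite G] (C : Cfg A T z r) {y a s : G} (hy : IsConj z y) (hyz : y ≠ z) (hyc : y * z = z * y)
    (ha : a ∈ A) (hs : s * a = a * s) (hsz : s * z * s⁻¹ = z * y) : InA A z y a := by
  obtain ⟨ρ, hρ, -, h1⟩ := C.flip hy hyz hyc
  have h2 := inA_conj (ρ * s) (C.inA_z.2 ha)
  have h3 : ρ * z = z * ρ := hρ z C.zA
  have e1 : ρ * s * z * (ρ * s)⁻¹ = y := by
    calc ρ * s * z * (ρ * s)⁻¹ = ρ * (s * z * s⁻¹) * ρ⁻¹ := by group
      _ = (ρ * z) * y * ρ⁻¹ := by rw [hsz]; group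
      _ = z * (ρ * y * ρ⁻¹) := by rw [h3]; group
      _ = z * (z * y) := by rw [h1, hyc]
      _ = y := by rw [← mul_assoc, C.zz, one_mul]
  have e2 : ρ * s * a * (ρ * s)⁻¹ = a := by
    calc ρ * s * a * (ρ * s)⁻¹ = ρ * (s * a) * s⁻¹ * ρ⁻¹ := by group
      _ = (ρ * a) * ρ⁻¹ := by rw [hs]; group
      _ = a := by rw [hρ a ha]; group
  rwa [e1, e2] at h2

/-- **(F14)** -/
theorem inA_or [Finite G] (C : Cfg A T z r) {y w : G} (hy : IsConj z y) (hyz : y ≠ z) (hyc : y * z = z * y)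
    (hw : w ∈ A) (hwy : w * y = y * w) (hw2 : IsPGroup 2 (zpowers w)) : InA A z y w ∨ InA A z y (w * z) := by
  have h1 := join_comm hw2 (zpow_two_of_sq C.zz) (comm_zpowers (C.zK w hw))
  have hUy : zpowers z ⊔ zpowers w ≤ centralizer {y} := by
    rw [sup_le_iff, zpowers_le, zpowers_le, mem_centralizer_singleton_iff, mem_centralizer_singleton_iff]
    exact ⟨hyc.symm, hwy⟩
  obtain ⟨σ, hσ, h2, h3, -⟩ := C.char hy h1 (fun u hu => mem_centralizer_singleton_iff.1 (hUy hu))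
  have h4 := h3 z (mem_sup_left (mem_zpowers z)) (IsConj.refl z) hyz.symm
  have h5 : σ⁻¹ * z * σ⁻¹⁻¹ = z * y := by
    rw [mul_inv_eq_iff_eq_mul] at h4
    calc σ⁻¹ * z * σ⁻¹⁻¹ = σ⁻¹ * (z * σ) := by group
      _ = σ⁻¹ * (σ * y * z) := by rw [h4]
      _ = y * z := by group
      _ = z * y := hyc
  have key : ∀ v : G, v ∈ A → v * σ * v⁻¹ = σ → InA A z y v := by
    intro v hv hvσ
    apply C.inA_of_comm hy hyz hyc hv _ h5
    rw [mul_inv_eq_iff_eq_mul] at hvσ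
    rw [inv_mul_eq_iff_eq_mul, ← mul_assoc, ← hvσ, mul_inv_cancel_right]
  rcases h2 w (mem_sup_right (mem_zpowers w)) with h6 | h6
  · exact Or.inl (key w hw h6)
  · right
    apply key _ (A.mul_mem hw C.zA)
    calc w * z * σ * (w * z)⁻¹ = w * (z * σ * z⁻¹) * w⁻¹ := by group
      _ = (w * σ * w⁻¹) * (w * y * w⁻¹) := by rw [h4]; group
      _ = (σ * y) * y := by rw [h6, hwy]; group
      _ = σ := by rw [mul_assoc, C.sq hy, mul_one]

/-- **(F16)** -/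
theorem not_flip [Finite G] (C : Cfg A T z r) {y v : G} (hy : IsConj z y) (hyz : y ≠ z) (hyc : y * z = z * y)
    (hv : v ∈ A) (hvv : v * v = 1) : v * y * v⁻¹ ≠ y * z := by
  intro h
  obtain ⟨ρ, hρ, hρρ, h1⟩ := C.flip hy hyz hyc
  apply C.sqf hy hyz (v := ρ * v)
  · have h2 : (ρ * v) * y * (ρ * v)⁻¹ = y := by
      calc (ρ * v) * y * (ρ * v)⁻¹ = ρ * (v * y * v⁻¹) * ρ⁻¹ := by group
        _ = (ρ * y * ρ⁻¹) * ((ρ * z) * ρ⁻¹) := by rw [h]; group
        _ = (y * z) * (z * ρ * ρ⁻¹) := by rw [h1, hρ z C.zA]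
        _ = y * (z * z) := by group
        _ = y := by rw [C.zz, mul_one]
    rw [mul_inv_eq_iff_eq_mul] at h2
    exact h2
  · calc ρ * v * (ρ * v) = ρ * (v * ρ) * v := by group
      _ = (ρ * ρ) * (v * v) := by rw [← hρ v hv]; group
      _ = z := by rw [hρρ, hvv, mul_one]

end Cfg

end Cfsg.Agent.H297
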