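import Mathlib
import Cfsg.Prelude.Def_TwoFusion

/-!
# The facts about strongly closed subgroups used, as hypotheses

They are passed as hypotheses in order to keep the import closures small.
-/

set_option autoImplicit false

namespace Cfsg.Agent.H297

open Subgroup Cfsg

universe u

/-- A strongly closed subgroup of a simple group contains the central elements of the Sylow subgroup. -/
def FHyp (_G : Type u) : Prop :=
  ∀ (Q : Type u) [Group Q] [Finite Q], IsSimpleGroup Q → ∀ (P : Sylow 2 Q) (B : Subgroup Q),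
    IsStronglyClosed B (P : Subgroup Q) → B ≠ ⊥ → ∀ w : Q, w ∈ (P : Subgroup Q) →
      (∀ p ∈ (P : Subgroup Q), p * w = w * p) → w ∈ B

/-- The used part of the theorem on strongly closed subgroups. -/
def HStr (_G : Type u) : Prop :=
  ∀ (Q : Type u) [Group Q] [Finite Q] (S : Sylow 2 Q) (A : Subgroup Q), IsStronglyClosed A (S : Subgroup Q) →
    Even (A.relIndex (normalClosure (A : Set Q))) →
    (∀ N : Subgroup Q, N.Normal → N ≠ ⊥ → Even ((A ⊓ N).relIndex N)) →
    ∃ (r : ℕ) (L : Fin r → Subgroup Q), (∀ i j, i ≠ j → ∀ a ∈ L i, ∀ b ∈ L j, a * b = b * a) ∧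
      (⨆ i, L i) = normalClosure (A : Set Q) ∧ (∀ i, IsSimpleGroup ↥(L i)) ∧
      (∀ i, ∃ P : Sylow 2 ↥(L i), (A ⊓ L i) =
        ((Subgroup.center (P : Subgroup ↥(L i))).map (P : Subgroup ↥(L i)).subtype).map (L i).subtype)

end Cfsg.Agent.H297
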