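import Mathlib
import Cfsg.Agent.OddHalf.D9.Co1.Facts

/-!
# An involution whose centralizer is `L ∘ C` with `L` like the double cover of `Co1` is isolated

As `Cfsg.Agent.OddHalf.D9.Isolated`, but the centralizer `C` of the component is not assumed to be an abelian 2-group:
it has only one involution, and its commutator subgroup has no element of order 2 or 4.
-/

set_option autoImplicit false

namespace Cfsg.Agent.H297.Isolated

open Subgroup
open scoped commutatorElement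
open Cfsg.Agent.OddHalf.D9.Isolated (Facts Lab mem_centralizer_iff' conj_comm even_index mem_conj_iff)

/-- The centralizer of the involution in the big group. -/
structure Cfg {G : Type*} [Group G] {L : Type*} [Group L] (ζ : L) (φ : L →* G) (R : Subgroup G) :
    Prop where
  inj : Function.Injective φ
  ζR : φ ζ ∈ R
  der : ∀ r ∈ ⁅R, R⁆, (r * r) * (r * r) = 1 → r = 1
  uniq : ∀ r ∈ R, r * r = 1 → r = 1 ∨ r = φ ζ
  comm : ∀ r ∈ R, ∀ k : L, r * φ k = φ k * r
  cent : ∀ c : G, c * φ ζ = φ ζ * c → ∃ k : L, ∃ r ∈ R, c = φ k * r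

variable {G : Type*} [Group G] {L : Type*} [Group L] {ζ : L} {P D : L → Prop} {φ : L →* G}
  {R : Subgroup G}

/-- Elements of `L` mapped into `R` are central. -/
theorem Cfg.mem_R (F : Facts L ζ P D) (C : Cfg ζ φ R) {k : L} (hk : φ k ∈ R) : k = 1 ∨ k = ζ := by
  apply F.center
  intro x
  apply C.inj
  rw [map_mul, map_mul]
  exact (C.comm _ hk x).symm

/-- **(1A)** -/
theorem Cfg.exists_comm (F : Facts L ζ P D) (C : Cfg ζ φ R) {e : G} (he : e * φ ζ = φ ζ * e)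
    (h2 : e * e = 1) (h1 : e ≠ 1) (hz : e ≠ φ ζ) :
    ∃ u v : G, u * φ ζ = φ ζ * u ∧ v * φ ζ = φ ζ * v ∧ u * e = e * u ∧ v * e = e * v ∧
      u * v = φ ζ * (v * u) := by
  obtain ⟨k, r, hr, rfl⟩ := C.cent e he
  have hkr : (φ k * r) * (φ k * r) = φ (k * k) * (r * r) := by
    rw [mul_assoc, ← mul_assoc r, C.comm r hr k, map_mul]
    simp only [mul_assoc]
  rw [hkr] at h2
  have hkk : φ (k * k) = (r * r)⁻¹ := eq_inv_of_mul_eq_one_left h2
  have hkkR : φ (k * k) ∈ R := by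
    rw [hkk]; exact R.inv_mem (R.mul_mem hr hr)
  have hk : ¬ φ k ∈ R := by
    intro hk
    have h3 : φ k * r ∈ R := R.mul_mem hk hr
    rcases C.uniq _ h3 (by rw [hkr, h2]) with h4 | h4
    · exact h1 h4
    · exact hz h4
  have hk1 : k ≠ 1 := by
    rintro rfl
    exact hk (by rw [map_one]; exact R.one_mem)
  have hkz : k ≠ ζ := by
    rintro rfl
    exact hk C.ζR
  obtain ⟨u, v, hu, hv, huv⟩ := F.comm k hk1 hkz (C.mem_R F hkkR)
  refine ⟨φ u, φ v, ?_, ?_, ?_, ?_, ?_⟩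
  · rw [← map_mul, ← map_mul, F.cen]
  · rw [← map_mul, ← map_mul, F.cen]
  · rw [← mul_assoc, ← map_mul, hu, map_mul, mul_assoc, mul_assoc, C.comm r hr u]
  · rw [← mul_assoc, ← map_mul, hv, map_mul, mul_assoc, mul_assoc, C.comm r hr v]
  · rw [← map_mul, ← map_mul, ← map_mul, huv]

theorem Cfg.zz (F : Facts L ζ P D) : φ ζ * φ ζ = 1 := by
  rw [← map_mul, F.sq, map_one]

theorem Cfg.z_ne (F : Facts L ζ P D) (C : Cfg ζ φ R) : φ ζ ≠ 1 := by
  intro h
  exact F.one (C.inj (by rw [h, map_one]))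

/-- An involution `φ(l) c`, `c ∈ [R, R]`, is `φ(l)`. -/
theorem Cfg.split (F : Facts L ζ P D) (C : Cfg ζ φ R) {l : L} {c : G} (hc : c ∈ ⁅R, R⁆)
    (h : φ l * c * (φ l * c) = 1) : c = 1 := by
  have hcR : c ∈ R := Subgroup.commutator_le_self _ hc
  have h1 : φ (l * l) * (c * c) = 1 := by
    have h0 := C.comm c hcR l
    calc φ (l * l) * (c * c) = φ l * (φ l * c) * c := by rw [map_mul]; group
      _ = φ l * (c * φ l) * c := by rw [h0]
      _ = φ l * c * (φ l * c) := by group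
      _ = 1 := h
  have h2 : φ (l * l) = (c * c)⁻¹ := eq_inv_of_mul_eq_one_left h1
  have h3 : φ (l * l) ∈ R := by
    rw [h2]; exact R.inv_mem (R.mul_mem hcR hcR)
  have h4 : φ (l * l) * φ (l * l) = 1 := by
    rcases C.mem_R F h3 with h5 | h5
    · rw [h5, map_one, one_mul]
    · rw [h5, Cfg.zz F]
  apply C.der c hc
  rw [h2, ← mul_inv_rev, inv_eq_one] at h4
  exact h4

/-- **(1)** Conjugates of `z` in `C(z)` lie in `K`. -/
theorem Cfg.mem_K (F : Facts L ζ P D) (C : Cfg ζ φ R) {g : G}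
    (he : (g * φ ζ * g⁻¹) * φ ζ = φ ζ * (g * φ ζ * g⁻¹)) (hz : g * φ ζ * g⁻¹ ≠ φ ζ) :
    ∃ k : L, g * φ ζ * g⁻¹ = φ k ∧ k * k = 1 ∧ k ≠ 1 ∧ k ≠ ζ := by
  have h1 : (g⁻¹ * φ ζ * g) * φ ζ = φ ζ * (g⁻¹ * φ ζ * g) := by
    have h := conj_comm (g := g⁻¹) he
    have e1 : g⁻¹ * (g * φ ζ * g⁻¹) * g⁻¹⁻¹ = φ ζ := by group
    have e2 : g⁻¹ * φ ζ * g⁻¹⁻¹ = g⁻¹ * φ ζ * g := by group
    rw [e1, e2] at h
    exact h.symm
  have h2 : (g⁻¹ * φ ζ * g) * (g⁻¹ * φ ζ * g) = 1 := by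
    have : (g⁻¹ * φ ζ * g) * (g⁻¹ * φ ζ * g) = g⁻¹ * (φ ζ * φ ζ) * g := by group
    rw [this, Cfg.zz F]
    group
  have h3 : g⁻¹ * φ ζ * g ≠ 1 := by
    intro h
    apply C.z_ne F
    have : φ ζ = g * (g⁻¹ * φ ζ * g) * g⁻¹ := by group
    rw [this, h]
    group
  have h4 : g⁻¹ * φ ζ * g ≠ φ ζ := by
    intro h
    apply hz
    conv_lhs => rw [← h]
    group
  obtain ⟨u, v, hu, hv, hu', hv', huv⟩ := C.exists_comm F h1 h2 h3 h4
  -- transport by `g`
  have k1 : (g * u * g⁻¹) * φ ζ = φ ζ * (g * u * g⁻¹) := by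
    have h := conj_comm (g := g) hu'
    have e1 : g * (g⁻¹ * φ ζ * g) * g⁻¹ = φ ζ := by group
    rwa [e1] at h
  have k2 : (g * v * g⁻¹) * φ ζ = φ ζ * (g * v * g⁻¹) := by
    have h := conj_comm (g := g) hv'
    have e1 : g * (g⁻¹ * φ ζ * g) * g⁻¹ = φ ζ := by group
    rwa [e1] at h
  obtain ⟨a, r, hr, ha⟩ := C.cent _ k1
  obtain ⟨b, s, hs, hb⟩ := C.cent _ k2
  have h5 : g * φ ζ * g⁻¹ = φ (a * b * (b * a)⁻¹) := by
    have e1 : (g * u * g⁻¹) * (g * v * g⁻¹) = (g * φ ζ * g⁻¹) * ((g * v * g⁻¹) * (g * u * g⁻¹)) := by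
      have e2 : (g * u * g⁻¹) * (g * v * g⁻¹) = g * (u * v) * g⁻¹ := by group
      rw [e2, huv]
      group
    rw [ha, hb] at e1
    have e3 : φ a * r * (φ b * s) = φ (a * b) * (r * s) := by
      rw [mul_assoc, ← mul_assoc r, C.comm r hr b, map_mul]
      simp only [mul_assoc]
    have e4 : φ b * s * (φ a * r) = φ (b * a) * (s * r) := by
      rw [mul_assoc, ← mul_assoc s, C.comm s hs a, map_mul]
      simp only [mul_assoc]
    have hc : ⁅r, s⁆ ∈ ⁅R, R⁆ := commutator_mem_commutator hr hs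
    have e5 : g * φ ζ * g⁻¹ = φ (a * b * (b * a)⁻¹) * ⁅r, s⁆ := by
      rw [e3, e4] at e1
      have e6 : g * φ ζ * g⁻¹ = φ (a * b) * (r * s) * (φ (b * a) * (s * r))⁻¹ := by rw [e1]; group
      have e7 : ⁅r, s⁆ * (φ (b * a))⁻¹ = (φ (b * a))⁻¹ * ⁅r, s⁆ := by
        rw [← map_inv]
        exact C.comm _ (Subgroup.commutator_le_self _ hc) _
      calc g * φ ζ * g⁻¹ = φ (a * b) * (⁅r, s⁆ * (φ (b * a))⁻¹) := by
            rw [e6, commutatorElement_def]; group
        _ = φ (a * b) * ((φ (b * a))⁻¹ * ⁅r, s⁆) := by rw [e7]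
        _ = _ := by rw [map_mul φ (a * b), map_inv, mul_assoc]
    have e8 := C.split F hc (l := a * b * (b * a)⁻¹) (by
      rw [← e5]
      have : (g * φ ζ * g⁻¹) * (g * φ ζ * g⁻¹) = g * (φ ζ * φ ζ) * g⁻¹ := by group
      rw [this, Cfg.zz F]
      group)
    rw [e5, e8, mul_one]
  refine ⟨a * b * (b * a)⁻¹, h5, ?_, ?_, ?_⟩
  · apply C.inj
    rw [map_mul, ← h5, map_one]
    have : (g * φ ζ * g⁻¹) * (g * φ ζ * g⁻¹) = g * (φ ζ * φ ζ) * g⁻¹ := by group
    rw [this, Cfg.zz F]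
    group
  · intro h
    rw [h, map_one] at h5
    apply C.z_ne F
    have : φ ζ = g⁻¹ * (g * φ ζ * g⁻¹) * g := by group
    rw [this, h5]
    group
  · intro h
    rw [h] at h5
    exact hz h5

/-- **(1')** The same for a conjugate `x = g z g⁻¹`. -/
theorem Cfg.mem_K' (F : Facts L ζ P D) (C : Cfg ζ φ R) {g h : G} {x y : G}
    (hx : g * φ ζ * g⁻¹ = x) (hy : h * φ ζ * h⁻¹ = y) (hxy : y * x = x * y) (hne : y ≠ x) :
    ∃ k : L, y = g * φ k * g⁻¹ ∧ k * k = 1 ∧ k ≠ 1 ∧ k ≠ ζ := by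
  have e1 : (g⁻¹ * h) * φ ζ * (g⁻¹ * h)⁻¹ = g⁻¹ * y * g := by rw [← hy]; group
  have e2 : φ ζ = g⁻¹ * x * g := by rw [← hx]; group
  obtain ⟨k, hk, hk2⟩ := C.mem_K F (g := g⁻¹ * h) (by
    rw [e1, e2]
    have h1 : g⁻¹ * y * g * (g⁻¹ * x * g) = g⁻¹ * (y * x) * g := by group
    have h2 : g⁻¹ * x * g * (g⁻¹ * y * g) = g⁻¹ * (x * y) * g := by group
    rw [h1, h2, hxy]) (by
    rw [e1, e2]
    intro h1
    apply hne
    have h2 : y = g * (g⁻¹ * y * g) * g⁻¹ := by group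
    rw [h2, h1]
    group)
  refine ⟨k, ?_, hk2⟩
  rw [← hk, e1]
  group

/-! ### The order of `C(z, k)` -/

/-- The product map `C_L(k) × R → G`. -/
noncomputable def Cfg.prod (C : Cfg ζ φ R) (k : L) : (centralizer {k} : Subgroup L) × R →* G :=
  MonoidHom.noncommCoprod (φ.comp (centralizer {k} : Subgroup L).subtype) R.subtype
    (fun l r => (C.comm r r.2 l).symm)

theorem Cfg.prod_apply (C : Cfg ζ φ R) (k : L) (x : (centralizer {k} : Subgroup L) × R) :
    C.prod k x = φ x.1 * (x.2 : G) := rfl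

theorem Cfg.range_prod (F : Facts L ζ P D) (C : Cfg ζ φ R) (k : L) :
    (C.prod k).range = centralizer {φ ζ} ⊓ centralizer {φ k} := by
  ext c
  rw [MonoidHom.mem_range, mem_inf, mem_centralizer_iff', mem_centralizer_iff']
  constructor
  · rintro ⟨⟨l, r⟩, rfl⟩
    rw [C.prod_apply]
    have hl := mem_centralizer_iff'.1 l.2
    constructor
    · show φ l * (r : G) * φ ζ = φ ζ * (φ l * (r : G))
      rw [mul_assoc, C.comm r r.2 ζ, ← mul_assoc, ← map_mul, F.cen, map_mul, mul_assoc]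
    · show φ l * (r : G) * φ k = φ k * (φ l * (r : G))
      rw [mul_assoc, C.comm r r.2 k, ← mul_assoc, ← map_mul, hl, map_mul, mul_assoc]
  · rintro ⟨h1, h2⟩
    obtain ⟨l, r, hr, rfl⟩ := C.cent c h1
    have hl : l * k = k * l := by
      apply C.inj
      rw [map_mul, map_mul]
      rw [mul_assoc, C.comm r hr k, ← mul_assoc, ← mul_assoc, mul_left_inj] at h2
      exact h2
    exact ⟨(⟨l, mem_centralizer_iff'.2 hl⟩, ⟨r, hr⟩), rfl⟩

theorem Cfg.card_ker (F : Facts L ζ P D) (C : Cfg ζ φ R) (k : L) :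
    Nat.card (C.prod k).ker = 2 := by
  have hζ : ζ ∈ (centralizer {k} : Subgroup L) := mem_centralizer_iff'.2 (F.cen k).symm
  have hset : ((C.prod k).ker : Set ((centralizer {k} : Subgroup L) × R)) =
      {1, (⟨ζ, hζ⟩, ⟨φ ζ, C.ζR⟩)} := by
    ext ⟨l, r⟩
    rw [SetLike.mem_coe, MonoidHom.mem_ker, C.prod_apply, Set.mem_insert_iff, Set.mem_singleton_iff]
    constructor
    · intro h
      have h' : φ l * (r : G) = 1 := h
      have hl : φ (l : L) ∈ R := by
        rw [eq_inv_of_mul_eq_one_left h']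
        exact R.inv_mem r.2
      rcases C.mem_R F hl with h1 | h1
      · left
        rw [h1, map_one, one_mul] at h'
        exact Prod.ext (Subtype.ext h1) (Subtype.ext h')
      · right
        rw [h1] at h'
        have h2 : (r : G) = φ ζ := by
          rw [← mul_right_inj (φ ζ), h', Cfg.zz F]
        exact Prod.ext (Subtype.ext h1) (Subtype.ext h2)
    · rintro (h | h)
      · have h1 : l = 1 := congrArg Prod.fst h
        have h2 : r = 1 := congrArg Prod.snd h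
        rw [h1, h2]
        show φ ((1 : (centralizer {k} : Subgroup L)) : L) * ((1 : R) : G) = 1
        rw [coe_one, coe_one, map_one, one_mul]
      · have h1 : l = ⟨ζ, hζ⟩ := congrArg Prod.fst h
        have h2 : r = ⟨φ ζ, C.ζR⟩ := congrArg Prod.snd h
        rw [h1, h2]
        exact Cfg.zz F
  have h1 : Nat.card (C.prod k).ker =
      ({1, (⟨ζ, hζ⟩, ⟨φ ζ, C.ζR⟩)} : Set ((centralizer {k} : Subgroup L) × R)).ncard := by
    rw [← hset]
    rfl
  rw [h1, Set.ncard_pair]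
  intro h
  apply F.one
  exact (congrArg (fun x : (centralizer {k} : Subgroup L) × R => (x.1 : L)) h).symm

theorem Cfg.card_eq [Finite G] (F : Facts L ζ P D) (C : Cfg ζ φ R) (k : L) :
    Nat.card (centralizer {k} : Subgroup L) * Nat.card R =
      2 * Nat.card (centralizer {φ ζ} ⊓ centralizer {φ k} : Subgroup G) := by
  have h := Subgroup.card_eq_card_quotient_mul_card_subgroup (C.prod k).ker
  rw [Nat.card_prod, C.card_ker F, Nat.card_congr (QuotientGroup.quotientKerEquivRange (C.prod k)).toEquiv,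
    C.range_prod F] at h
  rw [h, mul_comm]

/-! ### Conjugate to the negative -/

/-! ### (2): the negatives -/

/-- From the point of view of `z`. -/
theorem Cfg.lab_minus (F : Facts L ζ P D) (C : Cfg ζ φ R) {k : L} (hk : P k) :
    Lab (centralizer {φ ζ} ⊓ centralizer {φ (ζ * k)}) (φ (ζ * k)) := by
  obtain ⟨E, hE, hE2, hEn, hw⟩ := F.label1 k hk
  refine ⟨E.map φ, ?_, hE2.map _, ?_, ?_⟩
  · rintro _ ⟨x, hx, rfl⟩
    have hx' := hE hx
    rw [← F.centralizer_neg, mem_centralizer_iff'] at hx'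
    rw [mem_inf, mem_centralizer_iff', mem_centralizer_iff']
    constructor
    · rw [← map_mul, F.cen, map_mul]
    · rw [← map_mul, hx', map_mul]
  · rintro c hc _ ⟨x, hx, rfl⟩
    rw [← C.range_prod F, MonoidHom.mem_range] at hc
    obtain ⟨⟨l, r⟩, rfl⟩ := hc
    refine ⟨l * x * (l : L)⁻¹, hEn l ?_ x hx, ?_⟩
    · rw [← F.centralizer_neg]; exact l.2
    · rw [C.prod_apply, map_mul, map_mul, map_inv, mul_inv_rev]
      have h1 := C.comm r r.2 x
      have h2 := C.comm (r : G)⁻¹ (R.inv_mem r.2) (l : L)⁻¹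
      show φ l * φ x * (φ l)⁻¹ = φ l * (r : G) * φ x * ((r : G)⁻¹ * (φ l)⁻¹)
      rw [mul_assoc (φ l) (r : G), h1]
      group
  · rw [← map_commutator]
    exact ⟨_, hw, rfl⟩

/-- Elements of `C(z) ∩ C(k)` normalise `R`. -/
theorem Cfg.normR (F : Facts L ζ P D) (C : Cfg ζ φ R) {k : L} {x : G}
    (hx : x ∈ (centralizer {φ ζ} ⊓ centralizer {φ k} : Subgroup G)) {r : G} (hr : r ∈ R) : x * r * x⁻¹ ∈ R := by
  rw [← C.range_prod F, MonoidHom.mem_range] at hx
  obtain ⟨⟨l, s⟩, rfl⟩ := hx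
  rw [C.prod_apply]
  have h1 : (s : G) * r * (s : G)⁻¹ ∈ R := R.mul_mem (R.mul_mem s.2 hr) (R.inv_mem s.2)
  have h2 := C.comm _ h1 (l : L)
  have h3 : φ (l : L) * (s : G) * r * (φ (l : L) * (s : G))⁻¹ = (s : G) * r * (s : G)⁻¹ := by
    calc φ (l : L) * (s : G) * r * (φ (l : L) * (s : G))⁻¹
        = φ (l : L) * ((s : G) * r * (s : G)⁻¹) * (φ (l : L))⁻¹ := by group
      _ = ((s : G) * r * (s : G)⁻¹) * φ (l : L) * (φ (l : L))⁻¹ := by rw [h2]
      _ = _ := by group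
  show φ (l : L) * (s : G) * r * (φ (l : L) * (s : G))⁻¹ ∈ R
  rw [h3]
  exact h1

/-- From the point of view of the other element. -/
theorem Cfg.not_lab (F : Facts L ζ P D) (C : Cfg ζ φ R) {k : L} (hk : P k) :
    ¬ Lab (centralizer {φ ζ} ⊓ centralizer {φ k}) (φ ζ) := by
  rintro ⟨Q, hQX, hQ2, hQn, hw⟩
  have hRX : R ≤ (centralizer {φ ζ} ⊓ centralizer {φ k} : Subgroup G) := by
    intro r hr
    rw [mem_inf, mem_centralizer_iff', mem_centralizer_iff']
    exact ⟨C.comm r hr ζ, C.comm r hr k⟩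
  -- the product `R Q`
  let S : Subgroup G :=
    { carrier := {x | ∃ r ∈ R, ∃ q ∈ Q, x = r * q}
      one_mem' := ⟨1, one_mem _, 1, one_mem _, by rw [one_mul]⟩
      mul_mem' := by
        rintro _ _ ⟨r, hr, q, hq, rfl⟩ ⟨r', hr', q', hq', rfl⟩
        have h1 := hQn r'⁻¹ (Subgroup.inv_mem _ (hRX hr')) q hq
        rw [inv_inv] at h1
        refine ⟨r * r', R.mul_mem hr hr', r'⁻¹ * q * r' * q', Q.mul_mem h1 hq', ?_⟩
        group
      inv_mem' := by
        rintro _ ⟨r, hr, q, hq, rfl⟩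
        refine ⟨r⁻¹, R.inv_mem hr, r * q⁻¹ * r⁻¹, hQn r (hRX hr) _ (Q.inv_mem hq), ?_⟩
        group }
  have hS : (R ⊔ Q : Subgroup G) ≤ S :=
    sup_le (fun r hr => ⟨r, hr, 1, one_mem _, by rw [mul_one]⟩) (fun q hq => ⟨1, one_mem _, q, hq, by rw [one_mul]⟩)
  have hpow : ∀ r ∈ R, ∀ q ∈ Q, ∀ n : ℕ, ∃ r' ∈ R, (r * q) ^ n = r' * q ^ n := by
    intro r hr q hq n
    induction n with
    | zero => exact ⟨1, one_mem _, by rw [pow_zero, pow_zero, one_mul]⟩
    | succ n ih =>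
      obtain ⟨r', hr', h1⟩ := ih
      have h2 := C.normR F (hQX (Q.pow_mem hq n)) hr
      refine ⟨r' * (q ^ n * r * (q ^ n)⁻¹), R.mul_mem hr' h2, ?_⟩
      rw [pow_succ, h1, pow_succ]
      group
  apply F.label2 k hk ((R ⊔ Q : Subgroup G).comap φ)
  · intro x hx
    have h1 : φ x ∈ (centralizer {φ ζ} ⊓ centralizer {φ k} : Subgroup G) := sup_le hRX hQX hx
    rw [mem_inf, mem_centralizer_iff', mem_centralizer_iff'] at h1
    rw [mem_centralizer_iff']
    apply C.inj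
    rw [map_mul, map_mul, h1.2]
  · rintro ⟨x, hx⟩
    obtain ⟨r, hr, q, hq, hxe⟩ := hS hx
    obtain ⟨n, hn⟩ := hQ2 ⟨q, hq⟩
    have hn' : q ^ 2 ^ n = 1 := congrArg Subtype.val hn
    obtain ⟨r', hr', h1⟩ := hpow r hr q hq (2 ^ n)
    rw [hn', mul_one, ← hxe, ← map_pow] at h1
    have h2 : φ (x ^ 2 ^ n) ∈ R := by rw [h1]; exact hr'
    refine ⟨n + 1, Subtype.ext ?_⟩
    show x ^ 2 ^ (n + 1) = 1
    rw [pow_succ, pow_mul, pow_two]
    rcases C.mem_R F h2 with h3 | h3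
    · rw [h3, one_mul]
    · rw [h3, F.sq]
  · intro g hg x hx
    rw [mem_comap] at hx ⊢
    rw [map_mul, map_mul, map_inv]
    have hgX : φ g ∈ (centralizer {φ ζ} ⊓ centralizer {φ k} : Subgroup G) := by
      rw [mem_inf, mem_centralizer_iff', mem_centralizer_iff', ← map_mul, ← map_mul, ← map_mul,
        ← map_mul, F.cen, mem_centralizer_iff'.1 hg]
      exact ⟨rfl, rfl⟩
    have h1 : ∀ y ∈ (R ⊔ Q : Subgroup G), φ g * y * (φ g)⁻¹ ∈ (R ⊔ Q : Subgroup G) := by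
      have h2 : (R ⊔ Q : Subgroup G) ≤ (R ⊔ Q : Subgroup G).comap (MulAut.conj (φ g)).toMonoidHom := by
        apply sup_le
        · intro r hr
          rw [mem_comap]
          show φ g * r * (φ g)⁻¹ ∈ _
          rw [← C.comm r hr g, mul_inv_cancel_right]
          exact mem_sup_left hr
        · intro y hy
          rw [mem_comap]
          exact mem_sup_right (hQn _ hgX y hy)
      exact fun y hy => h2 hy
    exact h1 _ hx
  · -- `[Q, Q] ≤ φ [Q', Q'] × [R, R]`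
    let M : Subgroup G :=
      { carrier := {x | ∃ y ∈ ⁅(R ⊔ Q : Subgroup G).comap φ, (R ⊔ Q : Subgroup G).comap φ⁆, ∃ c ∈ ⁅R, R⁆,
          x = φ y * c}
        one_mem' := ⟨1, one_mem _, 1, one_mem _, by rw [map_one, one_mul]⟩
        mul_mem' := by
          rintro _ _ ⟨y, hy, c, hc, rfl⟩ ⟨y', hy', c', hc', rfl⟩
          refine ⟨y * y', mul_mem hy hy', c * c', mul_mem hc hc', ?_⟩
          have h1 := C.comm c (Subgroup.commutator_le_self _ hc) y'
          calc φ y * c * (φ y' * c') = φ y * (c * φ y') * c' := by group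
            _ = φ y * (φ y' * c) * c' := by rw [h1]
            _ = φ (y * y') * (c * c') := by rw [map_mul]; group
        inv_mem' := by
          rintro _ ⟨y, hy, c, hc, rfl⟩
          refine ⟨y⁻¹, inv_mem hy, c⁻¹, inv_mem hc, ?_⟩
          have h1 := C.comm c⁻¹ (Subgroup.commutator_le_self _ (inv_mem hc)) y⁻¹
          rw [mul_inv_rev, ← map_inv, h1] }
    have h1 : ⁅Q, Q⁆ ≤ M := by
      rw [commutator_le]
      intro a ha b hb
      have ha' := hQX ha
      have hb' := hQX hb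
      rw [← C.range_prod F, MonoidHom.mem_range] at ha' hb'
      obtain ⟨⟨a1, r⟩, har⟩ := ha'
      obtain ⟨⟨b1, s⟩, hbs⟩ := hb'
      rw [C.prod_apply] at har hbs
      have har' : φ a1 * (r : G) = a := har
      have hbs' : φ b1 * (s : G) = b := hbs
      have ka : φ a1 ∈ (R ⊔ Q : Subgroup G) := by
        have : φ a1 = a * (r : G)⁻¹ := by rw [← har', mul_inv_cancel_right]
        rw [this]
        exact Subgroup.mul_mem _ (mem_sup_right ha) (mem_sup_left (R.inv_mem r.2))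
      have kb : φ b1 ∈ (R ⊔ Q : Subgroup G) := by
        have : φ b1 = b * (s : G)⁻¹ := by rw [← hbs', mul_inv_cancel_right]
        rw [this]
        exact Subgroup.mul_mem _ (mem_sup_right hb) (mem_sup_left (R.inv_mem s.2))
      refine ⟨⁅(a1 : L), (b1 : L)⁆, commutator_mem_commutator ka kb, ⁅(r : G), (s : G)⁆,
        commutator_mem_commutator r.2 s.2, ?_⟩
      rw [map_commutatorElement, ← har', ← hbs']
      have e1 := C.comm r r.2 (b1 : L)
      have e2 := C.comm s s.2 (a1 : L)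
      have m1 : φ a1 * (r : G) * (φ b1 * (s : G)) = φ a1 * φ b1 * ((r : G) * s) := by
        rw [mul_assoc, ← mul_assoc (r : G), e1]
        simp only [mul_assoc]
      have m2 : φ b1 * (s : G) * (φ a1 * (r : G)) = φ b1 * φ a1 * ((s : G) * r) := by
        rw [mul_assoc, ← mul_assoc (s : G), e2]
        simp only [mul_assoc]
      have e7 : ⁅(r : G), (s : G)⁆ * (φ (b1 * a1))⁻¹ = (φ (b1 * a1))⁻¹ * ⁅(r : G), (s : G)⁆ := by
        rw [← map_inv]
        exact C.comm _ (Subgroup.commutator_le_self _ (commutator_mem_commutator r.2 s.2)) _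
      calc ⁅φ a1 * (r : G), φ b1 * (s : G)⁆
          = φ a1 * (r : G) * (φ b1 * (s : G)) * (φ b1 * (s : G) * (φ a1 * (r : G)))⁻¹ := by
            rw [commutatorElement_def]; group
        _ = φ a1 * φ b1 * ((r : G) * s) * (φ b1 * φ a1 * ((s : G) * r))⁻¹ := by rw [m1, m2]
        _ = φ a1 * φ b1 * (⁅(r : G), (s : G)⁆ * (φ (b1 * a1))⁻¹) := by
            rw [commutatorElement_def, map_mul]; group
        _ = φ a1 * φ b1 * ((φ (b1 * a1))⁻¹ * ⁅(r : G), (s : G)⁆) := by rw [e7]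
        _ = ⁅φ (a1 : L), φ (b1 : L)⁆ * ⁅(r : G), (s : G)⁆ := by
            rw [map_mul, commutatorElement_def (φ (a1 : L))]; group
    obtain ⟨y, hy, c, hc, hy'⟩ := h1 hw
    have h2 := C.split F hc (l := y) (by rw [← hy', Cfg.zz F])
    rw [h2, mul_one] at hy'
    rw [C.inj hy']
    exact hy

/-- **(2)** -/
theorem Cfg.no_minus [Finite G] (F : Facts L ζ P D) (C : Cfg ζ φ R) {k : L} (hk : P k) (g : G) :
    g * φ ζ * g⁻¹ ≠ φ (ζ * k) := by
  intro hg
  have hfin : Finite L := Finite.of_injective φ C.inj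
  obtain ⟨h1, h2, h3⟩ := F.P_one k hk
  have hcomm : (g * φ ζ * g⁻¹) * φ ζ = φ ζ * (g * φ ζ * g⁻¹) := by
    rw [hg, ← map_mul, F.cen, map_mul]
  have hne : φ ζ ≠ g * φ ζ * g⁻¹ := by
    rw [hg]
    intro h
    have := C.inj h
    exact h1 (mul_eq_left.1 this.symm)
  -- `z` seen from `e`
  obtain ⟨k', hk', hk2, hk1, hkz⟩ := C.mem_K' F (g := g) (h := 1) (x := g * φ ζ * g⁻¹) (y := φ ζ)
    rfl (by group) hcomm.symm hne
  have hX : ∀ c, c ∈ (centralizer {φ ζ} ⊓ centralizer {φ k'} : Subgroup G) ↔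
      g * c * g⁻¹ ∈ (centralizer {φ ζ} ⊓ centralizer {φ (ζ * k)} : Subgroup G) := by
    intro c
    rw [mem_inf, mem_inf, mem_centralizer_iff', mem_centralizer_iff', mem_centralizer_iff',
      mem_centralizer_iff', ← hg]
    have e1 : g⁻¹ * (g * c * g⁻¹) * g = c := by group
    have a1 : (g * c * g⁻¹) * (g * φ ζ * g⁻¹) = (g * φ ζ * g⁻¹) * (g * c * g⁻¹) ↔
        c * φ ζ = φ ζ * c := by rw [mem_conj_iff, e1]
    have a2 : (g * c * g⁻¹) * φ ζ = φ ζ * (g * c * g⁻¹) ↔ c * φ k' = φ k' * c := by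
      have : (g * c * g⁻¹) * (g * φ k' * g⁻¹) = (g * φ k' * g⁻¹) * (g * c * g⁻¹) ↔
        c * φ k' = φ k' * c := by rw [mem_conj_iff, e1]
      rwa [← hk'] at this
    rw [a1, a2, and_comm]
  have hlab := (C.lab_minus F hk).conj g hX
  have hlab' : Lab (centralizer {φ ζ} ⊓ centralizer {φ k'} : Subgroup G) (φ ζ) := by
    have : g⁻¹ * φ (ζ * k) * g = φ ζ := by rw [← hg]; group
    rwa [this] at hlab
  -- the orders
  have hcard : Nat.card (centralizer {φ ζ} ⊓ centralizer {φ k'} : Subgroup G) =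
      Nat.card (centralizer {φ ζ} ⊓ centralizer {φ (ζ * k)} : Subgroup G) := by
    apply Nat.card_congr
    exact
      { toFun := fun c => ⟨g * c * g⁻¹, (hX c).1 c.2⟩
        invFun := fun c => ⟨g⁻¹ * c * g, (hX _).2 (by
          have : g * (g⁻¹ * (c : G) * g) * g⁻¹ = c := by group
          rw [this]; exact c.2)⟩
        left_inv := fun c => Subtype.ext (by
          show g⁻¹ * (g * (c : G) * g⁻¹) * g = c
          group)
        right_inv := fun c => Subtype.ext (by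
          show g * (g⁻¹ * (c : G) * g) * g⁻¹ = c
          group) }
  have hN : Nat.card (centralizer {k'} : Subgroup L) = Nat.card (centralizer {k} : Subgroup L) := by
    have e1 := C.card_eq F k'
    have e2 := C.card_eq F (ζ * k)
    rw [F.centralizer_neg] at e2
    rw [hcard, ← e2] at e1
    exact Nat.eq_of_mul_eq_mul_right Nat.card_pos e1
  have hidx : (centralizer {k'} : Subgroup L).index = (centralizer {k} : Subgroup L).index := by
    have e1 := (centralizer {k'} : Subgroup L).card_mul_index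
    have e2 := (centralizer {k} : Subgroup L).card_mul_index
    rw [hN, ← e2] at e1
    exact Nat.eq_of_mul_eq_mul_left Nat.card_pos e1
  have hodd : ¬ 2 ∣ (centralizer {k'} : Subgroup L).index := hidx ▸ F.odd k hk
  rcases F.cases k' hk2 hk1 hkz with h | h | h
  · exact C.not_lab F h hlab'
  · apply C.not_lab F h
    have : (centralizer {φ ζ} ⊓ centralizer {φ (ζ * k')} : Subgroup G) =
        centralizer {φ ζ} ⊓ centralizer {φ k'} := by
      rw [← C.range_prod F, ← C.range_prod F]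
      ext c
      rw [MonoidHom.mem_range, MonoidHom.mem_range]
      constructor
      · rintro ⟨⟨⟨l, hl⟩, r⟩, rfl⟩
        exact ⟨(⟨l, by rw [← F.centralizer_neg]; exact hl⟩, r), rfl⟩
      · rintro ⟨⟨⟨l, hl⟩, r⟩, rfl⟩
        exact ⟨(⟨l, by rw [F.centralizer_neg]; exact hl⟩, r), rfl⟩
    rw [this]
    exact hlab'
  · obtain ⟨l, hl⟩ := F.D_conj k' (ζ * k') h (F.D_neg k' h)
    exact hodd (even_index F hl)

/-- **(3)** -/
theorem Cfg.no_plus [Finite G] (F : Facts L ζ P D) (C : Cfg ζ φ R) {k : L} (hk : P k) (g : G) :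
    g * φ ζ * g⁻¹ ≠ φ k := by
  intro hg
  obtain ⟨x0, y0, hxy, hx0, hy0, hxy0⟩ := F.tripleP
  -- all elements of type `P` are conjugate to `z`
  have hP : ∀ l : L, P l → ∃ h : G, h * φ ζ * h⁻¹ = φ l := by
    intro l hl
    obtain ⟨a, ha⟩ := F.P_conj k l hk hl
    refine ⟨φ a * g, ?_⟩
    rw [← ha, map_mul, map_mul, map_inv, ← hg]
    group
  obtain ⟨a, ha⟩ := hP x0 hx0
  obtain ⟨b, hb⟩ := hP y0 hy0
  obtain ⟨c, hc⟩ := hP _ hxy0
  obtain ⟨hx1, hxz, hxx⟩ := F.P_one x0 hx0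
  obtain ⟨hy1, hyz, hyy⟩ := F.P_one y0 hy0
  obtain ⟨hw1, hwz, -⟩ := F.P_one _ hxy0
  have hyx : φ y0 * φ x0 = φ x0 * φ y0 := by rw [← map_mul, ← map_mul, hxy]
  -- `y` and `z` seen from `x`
  obtain ⟨ky, hky, hky2, hky1, hkyz⟩ := C.mem_K' F ha hb hyx (by
    intro h
    have h1 := C.inj h
    rw [h1, hxx] at hw1
    exact hw1 rfl)
  obtain ⟨kz, hkz, hkz2, hkz1, hkzz⟩ := C.mem_K' F (h := 1) (y := φ ζ) ha (by group)
    (by rw [← map_mul, ← map_mul, F.cen]) (fun h => hxz (C.inj h).symm)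
  -- transport of types
  have tr : ∀ l : L, (∃ h : G, h * φ ζ * h⁻¹ = φ l) → ∃ h : G, h * φ ζ * h⁻¹ = a * φ l * a⁻¹ := by
    rintro l ⟨h, hh⟩
    refine ⟨a * h, ?_⟩
    rw [← hh]
    group
  have tr' : ∀ l : L, (∃ h : G, h * φ ζ * h⁻¹ = a * φ l * a⁻¹) → ∃ h : G, h * φ ζ * h⁻¹ = φ l := by
    rintro l ⟨h, hh⟩
    refine ⟨a⁻¹ * h, ?_⟩
    have : a⁻¹ * h * φ ζ * (a⁻¹ * h)⁻¹ = a⁻¹ * (h * φ ζ * h⁻¹) * a := by group
    rw [this, hh]
    group
  -- `w = y z`
  have hw : φ (ζ * y0) = a * φ (ky * kz) * a⁻¹ := by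
    rw [map_mul, map_mul, ← map_mul, ← F.cen, map_mul, hky, hkz]
    group
  have hwx : φ (ζ * (x0 * y0)) = a * φ (ζ * (ky * kz)) * a⁻¹ := by
    have h1 : ζ * (x0 * y0) = x0 * (ζ * y0) := by
      rw [← mul_assoc, ← F.cen, mul_assoc]
    rw [h1, map_mul, hw, ← ha, map_mul φ ζ]
    group
  have hcomm : ky * kz = kz * ky := by
    apply C.inj
    have h1 : φ (y0) * φ ζ = φ ζ * φ y0 := by rw [← map_mul, F.cen, map_mul]
    rw [hky] at h1
    have h2 : a * φ ky * a⁻¹ * φ ζ = a * (φ ky * φ kz) * a⁻¹ := by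
      conv_lhs => rw [hkz]
      group
    have h3 : φ ζ * (a * φ ky * a⁻¹) = a * (φ kz * φ ky) * a⁻¹ := by
      conv_lhs => rw [hkz]
      group
    rw [h2, h3, mul_left_inj, mul_right_inj] at h1
    rw [map_mul, map_mul, h1]
  have hkw2 : (ky * kz) * (ky * kz) = 1 := by
    rw [mul_assoc, ← mul_assoc kz, ← hcomm, mul_assoc, hkz2, mul_one, hky2]
  have hkw1 : ky * kz ≠ 1 := by
    intro h
    rw [h, map_one, mul_one, mul_inv_cancel, ← map_one φ] at hw
    have h1 := C.inj hw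
    have h2 : y0 = ζ := by rw [← F.neg_neg y0, h1, mul_one]
    exact hyz h2
  have hkwz : ky * kz ≠ ζ := by
    intro h
    rw [h, F.sq, map_one, mul_one, mul_inv_cancel, ← map_one φ] at hwx
    have h1 := C.inj hwx
    apply hwz
    rw [← F.neg_neg (x0 * y0), h1, mul_one]
  rcases F.cases _ hkw2 hkw1 hkwz with h | h | h
  · obtain ⟨d, hd⟩ := tr _ (hP _ h)
    rw [← hw] at hd
    exact C.no_minus F hy0 d hd
  · obtain ⟨d, hd⟩ := tr _ (hP _ h)
    rw [← hwx] at hd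
    exact C.no_minus F hxy0 d hd
  · -- no element of type `D` is conjugate to `z`
    have hD : ∀ l : L, D l → ∀ d : G, d * φ ζ * d⁻¹ ≠ φ l := by
      intro l hl d hd
      obtain ⟨m, hm⟩ := F.D_conj l _ hl h
      have h1 : ∃ q : G, q * φ ζ * q⁻¹ = φ (ky * kz) := by
        refine ⟨φ m * d, ?_⟩
        rw [← hm, map_mul φ _ m⁻¹, map_mul φ m, map_inv, ← hd]
        group
      obtain ⟨d', hd'⟩ := tr _ h1
      rw [← hw] at hd'
      exact C.no_minus F hy0 d' hd'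
    have hy' : ∃ q : G, q * φ ζ * q⁻¹ = φ ky := tr' ky ⟨b, by rw [hb, hky]⟩
    rcases F.cases _ hky2 hky1 hkyz with h' | h' | h'
    · -- `x y` would be of type `- P`
      have h1 : ∃ q : G, q * φ ζ * q⁻¹ = φ (ζ * ky) := by
        apply tr'
        refine ⟨c, ?_⟩
        rw [hc, map_mul, map_mul φ ζ, hky, ← ha]
        group
      obtain ⟨q, hq⟩ := h1
      exact C.no_minus F h' q hq
    · obtain ⟨q, hq⟩ := hy'
      rw [← F.neg_neg ky] at hq
      exact C.no_minus F h' q hq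
    · obtain ⟨q, hq⟩ := hy'
      exact hD _ h' q hq

/-- **(4)** -/
theorem Cfg.no_dod [Finite G] (F : Facts L ζ P D) (C : Cfg ζ φ R) {k : L} (hk : D k) (g : G) :
    g * φ ζ * g⁻¹ ≠ φ k := by
  intro hg
  obtain ⟨x0, y0, hxy, hx0, hy0, hxy0⟩ := F.tripleD
  have hD : ∀ l : L, D l → ∃ h : G, h * φ ζ * h⁻¹ = φ l := by
    intro l hl
    obtain ⟨a, ha⟩ := F.D_conj k l hk hl
    refine ⟨φ a * g, ?_⟩
    rw [← ha, map_mul, map_mul, map_inv, ← hg]
    group
  obtain ⟨a, ha⟩ := hD x0 hx0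
  obtain ⟨b, hb⟩ := hD y0 hy0
  obtain ⟨hx1, hxz, hxx⟩ := F.D_one x0 hx0
  obtain ⟨hw1, hwz, -⟩ := F.P_one _ hxy0
  have hyx : φ y0 * φ x0 = φ x0 * φ y0 := by rw [← map_mul, ← map_mul, hxy]
  obtain ⟨ky, hky, hky2, hky1, hkyz⟩ := C.mem_K' F ha hb hyx (by
    intro h
    have h1 := C.inj h
    rw [h1, hxx] at hw1
    exact hw1 rfl)
  have tr' : ∀ l : L, (∃ h : G, h * φ ζ * h⁻¹ = a * φ l * a⁻¹) → ∃ h : G, h * φ ζ * h⁻¹ = φ l := by
    rintro l ⟨h, hh⟩
    refine ⟨a⁻¹ * h, ?_⟩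
    have : a⁻¹ * h * φ ζ * (a⁻¹ * h)⁻¹ = a⁻¹ * (h * φ ζ * h⁻¹) * a := by group
    rw [this, hh]
    group
  have hy' : ∃ q : G, q * φ ζ * q⁻¹ = φ ky := tr' ky ⟨b, by rw [hb, hky]⟩
  rcases F.cases _ hky2 hky1 hkyz with h' | h' | h'
  · obtain ⟨q, hq⟩ := hy'
    exact C.no_plus F h' q hq
  · obtain ⟨q, hq⟩ := hy'
    rw [← F.neg_neg ky] at hq
    exact C.no_minus F h' q hq
  · obtain ⟨q, hq⟩ := hD _ (F.D_neg _ h')
    apply C.no_plus F hxy0 (a * q)
    have : a * q * φ ζ * (a * q)⁻¹ = a * (q * φ ζ * q⁻¹) * a⁻¹ := by group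
    rw [this, hq, map_mul, map_mul φ x0, hky, ← ha]
    group

/-- **The theorem**: `z` commutes with no other conjugate of itself. -/
theorem Cfg.isolated [Finite G] (F : Facts L ζ P D) (C : Cfg ζ φ R) (g : G)
    (h : (g * φ ζ * g⁻¹) * φ ζ = φ ζ * (g * φ ζ * g⁻¹)) : g * φ ζ * g⁻¹ = φ ζ := by
  by_contra hne
  obtain ⟨k, hk, h2, h1, hz⟩ := C.mem_K F h hne
  rcases F.cases k h2 h1 hz with h' | h' | h'
  · exact C.no_plus F h' g hk
  · rw [← F.neg_neg k] at hk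
    exact C.no_minus F h' g hk
  · exact C.no_dod F h' g hk

end Cfsg.Agent.H297.Isolated
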