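import Mathlib
import Cfsg.Agent.H297.Frame
import Cfsg.Agent.S0205

/-!
# Groups with cyclic Sylow 2-subgroups are solvable; perfect subgroups of `A C(A)`
-/

set_option autoImplicit false

namespace Cfsg.Agent.H297.Solv

open Subgroup Cfsg
open scoped commutatorElement

/-- A finite group with cyclic Sylow 2-subgroups is solvable. -/
theorem solvable {G : Type*} [Group G] [Finite G] (hR : ∀ R : Sylow 2 G, IsCyclic ↥(R : Subgroup G)) :
    Group.IsSolvable G := by
  obtain ⟨N, hN, ho, hc⟩ := Cfsg.Agent.H297.Frame.exists_odd hR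
  refine (Group.isSolvable_iff_subgroup_quotient N).mpr ⟨Cfsg.Agent.S0205.result ho, ?_⟩
  apply Group.isSolvable_of_comm
  intro a b
  induction a using QuotientGroup.induction_on with
  | H a =>
    induction b using QuotientGroup.induction_on with
    | H b =>
      rw [← QuotientGroup.mk_mul, ← QuotientGroup.mk_mul, QuotientGroup.eq]
      apply hc
      have : (a * b)⁻¹ * (b * a) = ⁅b⁻¹, a⁻¹⁆ := by
        rw [commutatorElement_def]; group
      rw [this]
      exact Subgroup.commutator_mem_commutator (mem_top _) (mem_top _)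

variable {G : Type*} [Group G]

/-- If `B` centralizes `A`: the commutators of `A B`. -/
theorem comm_mem {A B : Subgroup G} (h : ∀ b ∈ B, ∀ a ∈ A, b * a = a * b) {x y : G}
    (hx : ∃ a ∈ A, ∃ b ∈ B, x = a * b) (hy : ∃ a ∈ A, ∃ b ∈ B, y = a * b) :
    ∃ a ∈ A, ∃ b ∈ ⁅B, B⁆, ⁅x, y⁆ = a * b := by
  obtain ⟨a, ha, b, hb, rfl⟩ := hx
  obtain ⟨a', ha', b', hb', rfl⟩ := hy
  refine ⟨⁅a, a'⁆, ?_, ⁅b, b'⁆, commutator_mem_commutator hb hb', ?_⟩
  · rw [commutatorElement_def]
    exact A.mul_mem (A.mul_mem (A.mul_mem ha ha') (A.inv_mem ha)) (A.inv_mem ha')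
  · rw [commutatorElement_def, commutatorElement_def, commutatorElement_def]
    have h1 := h b hb a' ha'
    have h2 := h b' hb' a⁻¹ (A.inv_mem ha)
    have h3 := h b hb a⁻¹ (A.inv_mem ha)
    have h4 := h b⁻¹ (B.inv_mem hb) a⁻¹ (A.inv_mem ha)
    have h5 := h (b * b' * b⁻¹ * b'⁻¹) (B.mul_mem (B.mul_mem (B.mul_mem hb hb') (B.inv_mem hb)) (B.inv_mem hb'))
      a'⁻¹ (A.inv_mem ha')
    calc a * b * (a' * b') * (a * b)⁻¹ * (a' * b')⁻¹
        = a * (b * a') * b' * (b⁻¹ * a⁻¹) * b'⁻¹ * a'⁻¹ := by group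
      _ = a * a' * b * b' * (a⁻¹ * b⁻¹) * b'⁻¹ * a'⁻¹ := by rw [h1, h4]; group
      _ = a * a' * b * (b' * a⁻¹) * b⁻¹ * b'⁻¹ * a'⁻¹ := by group
      _ = a * a' * (b * a⁻¹) * b' * b⁻¹ * b'⁻¹ * a'⁻¹ := by rw [h2]; group
      _ = a * a' * a⁻¹ * ((b * b' * b⁻¹ * b'⁻¹) * a'⁻¹) := by rw [h3]; group
      _ = a * a' * a⁻¹ * a'⁻¹ * (b * b' * b⁻¹ * b'⁻¹) := by rw [h5]; group

/-- A perfect subgroup of `A B`, `B` solvable and centralizing `A`, lies in `A`. -/
theorem perf_le {A B : Subgroup G} (h : ∀ b ∈ B, ∀ a ∈ A, b * a = a * b) (hB : Group.IsSolvable ↥B)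
    {Y : Subgroup G} (hY : ⁅Y, Y⁆ = Y) (hle : ∀ y ∈ Y, ∃ a ∈ A, ∃ b ∈ B, y = a * b) : Y ≤ A := by
  have key : ∀ n : ℕ, ∀ y ∈ Y, ∃ a ∈ A, ∃ b ∈ (derivedSeries ↥B n).map B.subtype, y = a * b := by
    intro n
    induction n with
    | zero =>
      intro y hy
      obtain ⟨a, ha, b, hb, he⟩ := hle y hy
      exact ⟨a, ha, b, ⟨⟨b, hb⟩, mem_top _, rfl⟩, he⟩
    | succ n ih =>
      have hcent : ∀ b ∈ (derivedSeries ↥B n).map B.subtype, ∀ a ∈ A, b * a = a * b := by
        rintro _ ⟨b, -, rfl⟩ a ha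
        exact h _ b.2 a ha
      let D : Subgroup G := (derivedSeries ↥B n).map B.subtype
      have hDD : ⁅D, D⁆ ≤ D := commutator_le.2 fun x hx y hy => by
        rw [commutatorElement_def]
        exact D.mul_mem (D.mul_mem (D.mul_mem hx hy) (D.inv_mem hx)) (D.inv_mem hy)
      -- the subgroup `A [D, D]`
      let M : Subgroup G :=
        { carrier := {y | ∃ a ∈ A, ∃ b ∈ ⁅D, D⁆, y = a * b}
          one_mem' := ⟨1, A.one_mem, 1, one_mem _, (one_mul 1).symm⟩
          mul_mem' := by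
            rintro _ _ ⟨a, ha, b, hb, rfl⟩ ⟨a', ha', b', hb', rfl⟩
            have hbD : b ∈ D := hDD hb
            refine ⟨a * a', A.mul_mem ha ha', b * b', mul_mem hb hb', ?_⟩
            have := hcent b hbD a' ha'
            calc a * b * (a' * b') = a * (b * a') * b' := by group
              _ = a * a' * (b * b') := by rw [this]; group
          inv_mem' := by
            rintro _ ⟨a, ha, b, hb, rfl⟩
            have hbD : b ∈ D := hDD hb
            refine ⟨a⁻¹, A.inv_mem ha, b⁻¹, inv_mem hb, ?_⟩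
            rw [mul_inv_rev]
            exact hcent b⁻¹ (inv_mem hbD) a⁻¹ (A.inv_mem ha) }
      have hYM : Y ≤ M := by
        rw [← hY, commutator_le]
        intro x hx y hy
        exact comm_mem hcent (ih x hx) (ih y hy)
      intro y hy
      obtain ⟨a, ha, b, hb, he⟩ := hYM hy
      refine ⟨a, ha, b, ?_, he⟩
      rw [derivedSeries_succ, Subgroup.map_commutator]
      exact hb
  obtain ⟨n, hn⟩ := (Group.isSolvable_def ↥B).1 hB
  intro y hy
  obtain ⟨a, ha, b, hb, rfl⟩ := key n y hy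
  rw [hn, Subgroup.map_bot, mem_bot] at hb
  rw [hb, mul_one]
  exact ha

end Cfsg.Agent.H297.Solv
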